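import Cfsg.Agent.H641.RV.Comm8
import Cfsg.Agent.H170.RV.Mod

/-!
# TEAM RV, R5 for `³D₄(q)`: the involution of the long `SL₂(3)` is central in a Hall subgroup (helper641)
-/

set_option autoImplicit false

namespace Cfsg.Agent.H641.RV

open Matrix Cfsg.Lie Cfsg.Agent.ChevalleyStructure Cfsg.Agent.ChevalleyStructure.D4U
  Cfsg.Agent.ChevalleyStructure.OrthHyp
  Cfsg.Agent.ChevalleyStructure.OrthLie Cfsg.Agent.ChevalleyStructure.OrthD4Def Cfsg.Agent.Lib.SL2Mat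
  Cfsg.Agent.Cit.HexBase

variable {K : Type*} [Field K]

theorem rel_inv {g : GL (Fin 4 ⊕ Fin 4) K} {A : GL chevD4.Idx K} (h : RelK g A) : RelK g⁻¹ A⁻¹ := by
  obtain ⟨hgO, l, hl⟩ := h
  refine ⟨inv_mem hgO, - (((A⁻¹ : GL chevD4.Idx K) : Matrix chevD4.Idx chevD4.Idx K) *ᵥ l), fun u v => ?_⟩
  have h1 := hl (((g⁻¹ : GL (Fin 4 ⊕ Fin 4) K) : Matrix (Fin 4 ⊕ Fin 4) (Fin 4 ⊕ Fin 4) K) *ᵥ u)
    (((g⁻¹ : GL (Fin 4 ⊕ Fin 4) K) : Matrix (Fin 4 ⊕ Fin 4) (Fin 4 ⊕ Fin 4) K) *ᵥ v)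
  rw [act_act_inv, act_act_inv, (plusForm 4 K).B_act (inv_mem hgO)] at h1
  rw [h1, Matrix.mulVec_add, Matrix.mulVec_mulVec, ← Units.val_mul, inv_mul_cancel, Units.val_one,
    Matrix.one_mulVec, Matrix.mulVec_smul, smul_neg, add_neg_cancel_right]

theorem rel_mul {g h : GL (Fin 4 ⊕ Fin 4) K} {A B : GL chevD4.Idx K} (hg : RelK g A) (hh : RelK h B) :
    RelK (g * h) (A * B) := by
  have := Tab.Rel.mul hg hh
  rwa [← Units.val_mul] at this

theorem rel_one : RelK (1 : GL (Fin 4 ⊕ Fin 4) K) 1 := Tab.Rel.one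

theorem rel_pow {g : GL (Fin 4 ⊕ Fin 4) K} {A : GL chevD4.Idx K} (h : RelK g A) (n : ℕ) : RelK (g ^ n) (A ^ n) := by
  induction n with
  | zero => rw [pow_zero, pow_zero]; exact rel_one
  | succ n ih => rw [pow_succ, pow_succ]; exact rel_mul ih h

theorem rel_unique {g : GL (Fin 4 ⊕ Fin 4) K} {A B : GL chevD4.Idx K} (hA : RelK g A) (hB : RelK g B) : A = B :=
  Units.ext (Tab.Rel.unique (cc K) OrthD4Tab.span hA hB)

theorem sq_of_rel_one {g : GL (Fin 4 ⊕ Fin 4) K} (h : RelK g 1) : g * g = 1 := by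
  obtain ⟨c, hc2, hc⟩ := (plusForm 4 K).scalar_of_commute (k := Sum.inl 0) (l := Sum.inl 1) (Set.mem_univ _)
    (Set.mem_univ _) (by decide) (by simp [plusForm]) h.1
    (fun e he => Tab.commute_of_rel_one (cc K) OrthD4Tab.min OrthD4Tab.third h he)
  apply ext_act
  intro v
  rw [act_mul, hc, hc, smul_smul, ← sq, hc2, one_smul, act_one]

/-- the preimage of a subgroup -/
def lift (H : Subgroup (GL chevD4.Idx K)) : Subgroup (GL (Fin 4 ⊕ Fin 4) K) where
  carrier := {g | ∃ A ∈ H, RelK g A}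
  one_mem' := ⟨1, one_mem _, rel_one⟩
  mul_mem' := by
    rintro a b ⟨A, hA, h1⟩ ⟨B, hB, h2⟩
    exact ⟨A * B, mul_mem hA hB, rel_mul h1 h2⟩
  inv_mem' := by
    rintro a ⟨A, hA, h1⟩
    exact ⟨A⁻¹, inv_mem hA, rel_inv h1⟩

theorem not_dvd_lift [Finite K] {p : ℕ} [hp : Fact p.Prime] (h5 : 5 ≤ p) {H : Subgroup (GL chevD4.Idx K)}
    (hH : ¬ p ∣ Nat.card H) : ¬ p ∣ Nat.card (lift H) := by
  intro hd
  have : Finite (GL (Fin 4 ⊕ Fin 4) K) := inferInstance
  obtain ⟨⟨g, A, hA, hg⟩, ho⟩ := exists_prime_orderOf_dvd_card' p hd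
  have hgp : g ^ p = 1 := by
    have := pow_orderOf_eq_one (⟨g, A, hA, hg⟩ : lift H)
    rw [ho] at this
    exact congrArg Subtype.val this
  have hAp : A ^ p = 1 := by
    have h1 := rel_pow hg p
    rw [hgp] at h1
    exact rel_unique h1 rel_one
  have hA1 : A = 1 := by
    by_contra hne
    have h1 : orderOf A = p := orderOf_eq_prime hAp hne
    apply hH
    rw [← h1, ← Subgroup.orderOf_mk A hA]
    exact orderOf_dvd_natCard _
  rw [hA1] at hg
  have h2 := sq_of_rel_one hg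
  have h3 : (⟨g, A, hA, by rw [hA1]; exact hg⟩ : lift H) ^ 2 = 1 := Subtype.ext (by
    rw [sq]; exact h2)
  have h4 := orderOf_dvd_of_pow_eq_one h3
  rw [ho] at h4
  exact absurd (Nat.le_of_dvd (by norm_num) h4) (by omega)

/-- the polynomial of elements of order six -/
theorem th_poly {x : SL2 K} (hx : (x : Matrix (Fin 2) (Fin 2) K) * x - x + 1 = 0) :
    ((th x : Matrix (Fin 4 ⊕ Fin 4) (Fin 4 ⊕ Fin 4) K) - 1) *
      ((th x : Matrix (Fin 4 ⊕ Fin 4) (Fin 4 ⊕ Fin 4) K) * th x - th x + 1) = 0 := by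
  have e : ∀ i j, ent (x * x) i j = ent x i j - (1 : Matrix (Fin 2) (Fin 2) K) i j := by
    intro i j
    have := congrFun (congrFun hx i) j
    have h2 : ent (x * x) i j = ((x : Matrix (Fin 2) (Fin 2) K) * x) i j := rfl
    have h3 : ent x i j = (x : Matrix (Fin 2) (Fin 2) K) i j := rfl
    rw [h2, h3]
    simp only [Matrix.add_apply, Matrix.sub_apply, Matrix.zero_apply] at this
    linear_combination this
  rw [← Units.val_mul, ← map_mul, coe_th, coe_th, ← Matrix.fromBlocks_one]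
  have hA : tA (x * x) - tA x + 1 = Matrix.diagonal ![1, 0, 0, 1] := by
    ext i j
    fin_cases i <;> fin_cases j <;> simp [tA, e, Matrix.diagonal, Matrix.one_apply]
  have hD : tD (x * x) - tD x + 1 = Matrix.diagonal ![1, 0, 0, 1] := by
    ext i j
    fin_cases i <;> fin_cases j <;> simp [tD, e, Matrix.diagonal, Matrix.one_apply]
  have h1 : Matrix.fromBlocks (tA (x * x)) 0 0 (tD (x * x)) - Matrix.fromBlocks (tA x) 0 0 (tD x) +
      Matrix.fromBlocks 1 0 0 1 = Matrix.fromBlocks (tA (x * x) - tA x + 1) 0 0 (tD (x * x) - tD x + 1) := by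
    ext i j
    rcases i with i | i <;> rcases j with j | j <;> simp [Matrix.one_apply]
  have h2 : Matrix.fromBlocks (tA x) 0 0 (tD x) - Matrix.fromBlocks (1 : Matrix (Fin 4) (Fin 4) K) 0 0 1 =
      Matrix.fromBlocks (tA x - 1) 0 0 (tD x - 1) := by
    ext i j
    rcases i with i | i <;> rcases j with j | j <;> simp [Matrix.one_apply]
  rw [h1, h2, hA, hD, Matrix.fromBlocks_multiply]
  have h3 : (tA x - 1) * Matrix.diagonal ![1, 0, 0, 1] = 0 := by
    ext i j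
    rw [Matrix.mul_diagonal]
    fin_cases i <;> fin_cases j <;> simp [tA]
  have h4 : (tD x - 1) * Matrix.diagonal ![1, 0, 0, 1] = 0 := by
    ext i j
    rw [Matrix.mul_diagonal]
    fin_cases i <;> fin_cases j <;> simp [tD]
  rw [h3, h4]
  simp

theorem cube_eq {P : Type*} [Field P] {x : SL2 P} (hx : (x : Matrix (Fin 2) (Fin 2) P) * x - x + 1 = 0) :
    x ^ 3 = -1 := by
  apply Subtype.ext
  rw [Matrix.SpecialLinearGroup.coe_pow, Matrix.SpecialLinearGroup.coe_neg, Matrix.SpecialLinearGroup.coe_one]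
  generalize (x : Matrix (Fin 2) (Fin 2) P) = X at hx
  have h1 : X * X = X - 1 := by
    rw [← sub_eq_zero, ← hx]; abel
  rw [pow_succ, sq, h1, sub_mul, h1, one_mul]
  abel

/-- **the involution is central**, matrix form -/
theorem core [Finite K] {p : ℕ} [hp : Fact p.Prime] [CharP K p] (h5 : 5 ≤ p) {H : Subgroup (GL chevD4.Idx K)}
    (hH : ¬ p ∣ Nat.card H) (hgr : H ≤ chevD4.group K) {t1 t2 : SL2 K} (h12 : t1 * t2 ≠ t2 * t1)
    (hx1 : (t1 : Matrix (Fin 2) (Fin 2) K) * t1 - t1 + 1 = 0) (hx2 : (t2 : Matrix (Fin 2) (Fin 2) K) * t2 - t2 + 1 = 0)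
    {A1 A2 : GL chevD4.Idx K} (hA1 : A1 ∈ H) (hA2 : A2 ∈ H) (hr1 : RelK (th t1) A1) (hr2 : RelK (th t2) A2)
    {B : GL chevD4.Idx K} (hB : B ∈ H) : B * A1 ^ 3 = A1 ^ 3 * B := by
  have h2 : (2 : K) ≠ 0 := by
    intro h
    have h3 : ((2 : ℕ) : K) = 0 := by exact_mod_cast h
    rw [CharP.cast_eq_zero_iff K p] at h3
    exact absurd (Nat.le_of_dvd (by norm_num) h3) (by omega)
  obtain ⟨b, -, hb⟩ := Tab.exists_of_mem_group (cc K) OrthD4Tab.ok (hgr hB)
  have hb' : RelK b B := hb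
  let ρ : lift H →* Module.End K (Fin 4 ⊕ Fin 4 → K) :=
    ((Matrix.toLinAlgEquiv' (R := K) (n := Fin 4 ⊕ Fin 4)).toMulEquiv.toMonoidHom.comp
      (Units.coeHom (Matrix (Fin 4 ⊕ Fin 4) (Fin 4 ⊕ Fin 4) K))).comp (lift H).subtype
  have hρ : ∀ g : lift H, ρ g = Matrix.toLinAlgEquiv' ((g : GL (Fin 4 ⊕ Fin 4) K) : Matrix (Fin 4 ⊕ Fin 4) (Fin 4 ⊕ Fin 4) K) :=
    fun g => rfl
  let T1 : lift H := ⟨th t1, A1, hA1, hr1⟩
  let T2 : lift H := ⟨th t2, A2, hA2, hr2⟩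
  let b' : lift H := ⟨b, B, hB, hb'⟩
  have hpoly : ∀ (g : lift H) (x : SL2 K), (x : Matrix (Fin 2) (Fin 2) K) * x - x + 1 = 0 →
      (g : GL (Fin 4 ⊕ Fin 4) K) = th x → (ρ g - 1) * (ρ g * ρ g - ρ g + 1) = 0 := by
    intro g x hx hg
    rw [hρ, hg, ← map_one (Matrix.toLinAlgEquiv' (R := K) (n := Fin 4 ⊕ Fin 4)), ← map_sub, ← map_mul, ← map_sub,
      ← map_add, ← map_mul, th_poly hx, map_zero]
  have hconj : ∀ g : lift H, (ρ g - 1) * (ρ g * ρ g - ρ g + 1) = 0 →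
      (ρ (b' * g * b'⁻¹) - 1) * (ρ (b' * g * b'⁻¹) * ρ (b' * g * b'⁻¹) - ρ (b' * g * b'⁻¹) + 1) = 0 := by
    intro g hg
    have e1 : ρ b'⁻¹ * ρ b' = 1 := by rw [← map_mul, inv_mul_cancel, map_one]
    have e2 : ρ b' * ρ b'⁻¹ = 1 := by rw [← map_mul, mul_inv_cancel, map_one]
    rw [map_mul, map_mul]
    generalize ρ b' = u at *
    generalize ρ b'⁻¹ = v at *
    generalize ρ g = s at *
    have e3 : u * s * v * (u * s * v) = u * (s * s) * v := by
      calc u * s * v * (u * s * v) = u * s * (v * u) * s * v := by simp only [mul_assoc]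
        _ = _ := by rw [e1]; simp only [mul_assoc, mul_one]
    have e4 : u * s * v - 1 = u * (s - 1) * v := by rw [mul_sub, sub_mul, mul_one, e2]
    have e5 : u * s * v * (u * s * v) - u * s * v + 1 = u * (s * s - s + 1) * v := by
      rw [e3, mul_add, mul_sub, add_mul, sub_mul, mul_one, e2]
    rw [e4, e5]
    calc u * (s - 1) * v * (u * (s * s - s + 1) * v) = u * ((s - 1) * (v * u) * (s * s - s + 1)) * v := by
          simp only [mul_assoc]
      _ = 0 := by rw [e1, mul_one, hg]; simp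
  have hX : ¬ p ∣ Nat.card (lift H) := not_dvd_lift h5 hH
  have p1 := hpoly T1 t1 hx1 rfl
  have p2 := hpoly T2 t2 hx2 rfl
  have p3 := hconj T1 p1
  have q1 := H170.RV.t60_mod p h5 hX ρ _ _ p3 p1
  have q2 := H170.RV.t60_mod p h5 hX ρ _ _ p3 p2
  have hinj : Function.Injective ρ := by
    intro a c hac
    rw [hρ, hρ] at hac
    exact Subtype.ext (Units.ext (Matrix.toLinAlgEquiv'.injective hac))
  rw [← map_mul, ← map_mul] at q1 q2
  have r1 := congrArg Subtype.val (hinj q1)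
  have r2 := congrArg Subtype.val (hinj q2)
  set w : GL (Fin 4 ⊕ Fin 4) K := b * th (-1) * b⁻¹ with hw
  have hw3 : (((b' * T1 * b'⁻¹) ^ 3 : lift H) : GL (Fin 4 ⊕ Fin 4) K) = w := by
    rw [conj_pow]
    show b * (th t1) ^ 3 * b⁻¹ = w
    rw [← map_pow, cube_eq hx1]
  have s1 : w * th t1 = th t1 * w := by rw [← hw3]; exact r1
  have s2 : w * th t2 = th t2 * w := by rw [← hw3]; exact r2
  have sz : w * th (-1) = th (-1) * w := by
    have := (Commute.pow_right (show Commute w (th t1) from s1) 3).eq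
    rwa [← map_pow, cube_eq hx1] at this
  have hr3 : RelK (th (-1)) (A1 ^ 3) := by
    have := rel_pow hr1 3
    rwa [← map_pow, cube_eq hx1] at this
  have hrw : RelK w (B * A1 ^ 3 * B⁻¹) := rel_mul (rel_mul hb' hr3) (rel_inv hb')
  obtain ⟨c, hc, hcw⟩ := eight h2 h12 (w := w) (g := b) hrw.1 (by rw [hw]; group) s1 s2 sz
  have hrw' : RelK w (A1 ^ 3) := by
    obtain ⟨hO, l, hl⟩ := hr3
    refine ⟨hrw.1, l, fun u v => ?_⟩
    rw [hcw, hcw, map_smul, LinearMap.map_smul₂, smul_smul, hc, one_smul, hl]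
  have := rel_unique hrw hrw'
  rw [mul_inv_eq_iff_eq_mul] at this
  exact this

end Cfsg.Agent.H641.RV
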