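import Mathlib

/-!
# TEAM RV, R5 for `³D₄(q)`: linear algebra (helper641)

* `scalar_of_comm` : a `2 × 2` matrix commuting with two matrices which do not commute is scalar;
* `eq_smul` : an involution `w` which is conjugate to `Z`, commutes with it and is `α = ±1` on the eigenspace of `-1` of
  `Z` is `-α Z` if `Z` is conjugate to `-Z`;
* `sign_cases` : the equations for the action of an isometry on two copies of a module.
-/

set_option autoImplicit false

namespace Cfsg.Agent.H641.RV

open Module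

variable {K : Type*} [Field K]

theorem scalar_of_comm {A B N : Matrix (Fin 2) (Fin 2) K} (h : A * B ≠ B * A) (hA : N * A = A * N)
    (hB : N * B = B * N) : N 0 1 = 0 ∧ N 1 0 = 0 ∧ N 0 0 = N 1 1 := by
  have key : ∀ y : K, y * (A 0 1 * B 1 0 - B 0 1 * A 1 0) = 0 →
      y * ((A 0 0 - A 1 1) * B 0 1 - (B 0 0 - B 1 1) * A 0 1) = 0 →
      y * (A 1 0 * (B 0 0 - B 1 1) - B 1 0 * (A 0 0 - A 1 1)) = 0 → y = 0 := by
    intro y h0 h1 h2
    by_contra hne
    have e0 := (mul_eq_zero.1 h0).resolve_left hne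
    have e1 := (mul_eq_zero.1 h1).resolve_left hne
    have e2 := (mul_eq_zero.1 h2).resolve_left hne
    apply h
    ext i j
    fin_cases i <;> fin_cases j <;>
      simp only [Matrix.mul_apply, Fin.sum_univ_two, Fin.zero_eta, Fin.mk_one, Fin.isValue]
    · linear_combination e0
    · linear_combination e1
    · linear_combination e2
    · linear_combination -e0
  have a00 := congrFun (congrFun hA 0) 0
  have a01 := congrFun (congrFun hA 0) 1
  have a10 := congrFun (congrFun hA 1) 0
  have b00 := congrFun (congrFun hB 0) 0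
  have b01 := congrFun (congrFun hB 0) 1
  have b10 := congrFun (congrFun hB 1) 0
  simp only [Matrix.mul_apply, Fin.sum_univ_two] at a00 a01 a10 b00 b01 b10
  have R1 : N 0 1 * A 1 0 = A 0 1 * N 1 0 := by linear_combination a00
  have R2 : (N 0 0 - N 1 1) * A 0 1 = (A 0 0 - A 1 1) * N 0 1 := by linear_combination a01
  have R3 : (N 0 0 - N 1 1) * A 1 0 = (A 0 0 - A 1 1) * N 1 0 := by linear_combination -a10
  have S1 : N 0 1 * B 1 0 = B 0 1 * N 1 0 := by linear_combination b00
  have S2 : (N 0 0 - N 1 1) * B 0 1 = (B 0 0 - B 1 1) * N 0 1 := by linear_combination b01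
  have S3 : (N 0 0 - N 1 1) * B 1 0 = (B 0 0 - B 1 1) * N 1 0 := by linear_combination -b10
  refine ⟨key _ ?_ ?_ ?_, key _ ?_ ?_ ?_, sub_eq_zero.1 (key _ ?_ ?_ ?_)⟩
  · linear_combination A 0 1 * S1 - B 0 1 * R1
  · linear_combination A 0 1 * S2 - B 0 1 * R2
  · linear_combination (-A 1 0) * S2 - (A 0 0 - A 1 1) * S1 + B 0 1 * R3
  · linear_combination A 1 0 * S1 - B 1 0 * R1
  · linear_combination (-B 0 1) * R3 + A 1 0 * S2 + (B 0 0 - B 1 1) * R1
  · linear_combination B 1 0 * R3 - A 1 0 * S3
  · linear_combination B 1 0 * R2 + (A 0 0 - A 1 1) * S1 - B 0 1 * R3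
  · linear_combination (A 0 0 - A 1 1) * S2 - (B 0 0 - B 1 1) * R2
  · linear_combination (B 0 0 - B 1 1) * R3 - (A 0 0 - A 1 1) * S3

theorem sign_cases {α β γ δ : K} (h2 : (2 : K) ≠ 0) (h1 : α * α + β * γ = 1) (h3 : β * (α + δ) = 0)
    (h4 : γ * (α + δ) = 0) (hd : α * δ - β * γ = 1) :
    β = 0 ∧ γ = 0 ∧ δ = α ∧ (α = 1 ∨ α = -1) := by
  have h6 : α * (α + δ) = 2 := by linear_combination h1 + hd
  have h7 : α + δ ≠ 0 := by
    intro h
    rw [h, mul_zero] at h6
    exact h2 h6.symm
  have hb := (mul_eq_zero.1 h3).resolve_right h7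
  have hc := (mul_eq_zero.1 h4).resolve_right h7
  have ha : α * α = 1 := by rw [← h1, hb, zero_mul, add_zero]
  have hde : α * δ = 1 := by rw [← hd, hb, zero_mul, sub_zero]
  have hα : α ≠ 0 := by
    rintro rfl
    rw [zero_mul] at ha
    exact zero_ne_one ha
  refine ⟨hb, hc, mul_left_cancel₀ hα (by rw [hde, ha]), mul_self_eq_one_iff.1 ha⟩

variable {V : Type*} [AddCommGroup V] [Module K V] [FiniteDimensional K V]

/-- eigenspaces are matched by intertwining equivalences -/
theorem finrank_eig (A B : Module.End K V) (g : V ≃ₗ[K] V) (c d : K) (h : ∀ v, A (g v) = c • g v ↔ B v = d • v) :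
    finrank K (LinearMap.ker (A - c • 1)) = finrank K (LinearMap.ker (B - d • 1)) := by
  have h1 : (LinearMap.ker (B - d • 1)).map (g : V →ₗ[K] V) = LinearMap.ker (A - c • 1) := by
    ext v
    rw [Submodule.mem_map]
    constructor
    · rintro ⟨u, hu, rfl⟩
      rw [LinearMap.mem_ker, LinearMap.sub_apply, sub_eq_zero] at hu ⊢
      exact (h u).2 hu
    · intro hv
      refine ⟨g.symm v, ?_, g.apply_symm_apply v⟩
      rw [LinearMap.mem_ker, LinearMap.sub_apply, sub_eq_zero] at hv ⊢
      refine (h _).1 ?_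
      rw [g.apply_symm_apply]
      exact hv
  rw [← h1]
  exact LinearEquiv.finrank_map_eq g _

/-- **the sign** -/
theorem eq_smul (h2 : (2 : K) ≠ 0) (Z w : Module.End K V) (g s : V ≃ₗ[K] V) (hg : ∀ v, w (g v) = g (Z v))
    (hs : ∀ v, Z (s v) = -s (Z v)) (hZ : ∀ v, Z (Z v) = v) (hc : ∀ v, w (Z v) = Z (w v)) (hw : ∀ v, w (w v) = v)
    {α : K} (hα : α = 1 ∨ α = -1) (h : ∀ v, Z v = -v → w v = α • v) : ∀ v, w v = -(α • Z v) := by
  have hle : LinearMap.ker (Z - (-1 : K) • 1) ≤ LinearMap.ker (w - α • 1) := by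
    intro v hv
    rw [LinearMap.mem_ker, LinearMap.sub_apply, sub_eq_zero] at hv ⊢
    refine h v ?_
    rw [hv, LinearMap.smul_apply, Module.End.one_apply, neg_smul, one_smul]
  have hfin : finrank K (LinearMap.ker (Z - (-1 : K) • 1)) = finrank K (LinearMap.ker (w - α • 1)) := by
    have h1 : finrank K (LinearMap.ker (w - α • 1)) = finrank K (LinearMap.ker (Z - α • 1)) := by
      refine finrank_eig w Z g α α fun v => ?_
      rw [hg, ← map_smul]
      exact g.injective.eq_iff
    rw [h1]
    rcases hα with rfl | rfl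
    · refine finrank_eig Z Z s (-1) 1 fun v => ?_
      rw [hs, neg_smul, one_smul, one_smul, neg_inj]
      exact s.injective.eq_iff
    · rfl
  have heq := Submodule.eq_of_le_of_finrank_eq hle hfin
  -- the other eigenspace
  have hfix : ∀ v, Z v = v → w v = -(α • v) := by
    intro v hv
    have h3 : w v + α • v ∈ LinearMap.ker (w - α • 1) := by
      rw [LinearMap.mem_ker, LinearMap.sub_apply, sub_eq_zero, map_add, map_smul, hw, LinearMap.smul_apply,
        Module.End.one_apply, smul_add, smul_smul]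
      have : α * α = 1 := by rcases hα with rfl | rfl <;> norm_num
      rw [this, one_smul, add_comm]
    rw [← heq, LinearMap.mem_ker, LinearMap.sub_apply, sub_eq_zero, LinearMap.smul_apply, Module.End.one_apply,
      neg_smul, one_smul] at h3
    have h4 : Z (w v + α • v) = w v + α • v := by rw [map_add, ← hc, map_smul, hv]
    rw [h4] at h3
    have h5 : (2 : K) • (w v + α • v) = 0 := by
      rw [two_smul]
      nth_rewrite 1 [h3]
      exact neg_add_cancel _
    exact eq_neg_of_add_eq_zero_left ((smul_eq_zero.1 h5).resolve_left h2)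
  intro v
  have h6 := hfix (v + Z v) (by rw [map_add, hZ, add_comm])
  have h7 := h (v - Z v) (by rw [map_sub, hZ, neg_sub])
  have h8 : (2 : K) • w v = (2 : K) • (-(α • Z v)) := by
    have h9 : (2 : K) • w v = w (v + Z v) + w (v - Z v) := by
      rw [map_add, map_sub, two_smul]; abel
    rw [h9, h6, h7, smul_add, smul_sub, two_smul]
    abel
  exact smul_right_injective V h2 h8

end Cfsg.Agent.H641.RV
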