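import Cfsg.Agent.ChevalleyStructure.OrthD4Tab
import Cfsg.Agent.Cit.HexD4

/-!
# TEAM RV, R5 for `³D₄(q)`: the long `SL₂` on the natural module of `D₄` (helper641)

`th : SL₂(K) → GL₈(K)`, two natural modules and four trivial ones; `rel_pa` : `th x` and the image of `x` in the group
of type `D₄` (central node) are intertwined.
-/

set_option autoImplicit false

namespace Cfsg.Agent.H641.RV

open Matrix Cfsg.Lie Cfsg.Agent.ChevalleyStructure Cfsg.Agent.ChevalleyStructure.D4U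
  Cfsg.Agent.ChevalleyStructure.OrthHyp
  Cfsg.Agent.ChevalleyStructure.OrthLie Cfsg.Agent.ChevalleyStructure.OrthD4Def Cfsg.Agent.Lib.SL2Mat
  Cfsg.Agent.Cit.HexBase

variable {K : Type*} [Field K]

/-- the action on the first half -/
def tA (x : SL2 K) : Matrix (Fin 4) (Fin 4) K :=
  !![1, 0, 0, 0; 0, ent x 0 0, -ent x 0 1, 0; 0, -ent x 1 0, ent x 1 1, 0; 0, 0, 0, 1]

/-- the action on the second half -/
def tD (x : SL2 K) : Matrix (Fin 4) (Fin 4) K :=
  !![1, 0, 0, 0; 0, ent x 1 1, ent x 1 0, 0; 0, ent x 0 1, ent x 0 0, 0; 0, 0, 0, 1]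

theorem tA_one : tA (1 : SL2 K) = 1 := by
  ext i j
  fin_cases i <;> fin_cases j <;> simp [tA]

theorem tD_one : tD (1 : SL2 K) = 1 := by
  ext i j
  fin_cases i <;> fin_cases j <;> simp [tD]

theorem tA_mul (x y : SL2 K) : tA (x * y) = tA x * tA y := by
  ext i j
  fin_cases i <;> fin_cases j <;> simp [tA, Matrix.mul_apply, Fin.sum_univ_four, ent_mul] <;> ring

theorem tD_mul (x y : SL2 K) : tD (x * y) = tD x * tD y := by
  ext i j
  fin_cases i <;> fin_cases j <;> simp [tD, Matrix.mul_apply, Fin.sum_univ_four, ent_mul] <;> ring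

/-- the representation, as a map to matrices -/
def thM : SL2 K →* Matrix (Fin 4 ⊕ Fin 4) (Fin 4 ⊕ Fin 4) K where
  toFun x := Matrix.fromBlocks (tA x) 0 0 (tD x)
  map_one' := by rw [tA_one, tD_one, Matrix.fromBlocks_one]
  map_mul' x y := by
    rw [Matrix.fromBlocks_multiply, tA_mul, tD_mul]
    simp

/-- the representation -/
def th : SL2 K →* GL (Fin 4 ⊕ Fin 4) K := thM.toHomUnits

theorem coe_th (x : SL2 K) : (th x : Matrix (Fin 4 ⊕ Fin 4) (Fin 4 ⊕ Fin 4) K) = Matrix.fromBlocks (tA x) 0 0 (tD x) :=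
  rfl

theorem th_act (x : SL2 K) (v : Fin 4 ⊕ Fin 4 → K) : (th x : Matrix (Fin 4 ⊕ Fin 4) (Fin 4 ⊕ Fin 4) K) *ᵥ v =
    Sum.elim ![v (.inl 0), ent x 0 0 * v (.inl 1) - ent x 0 1 * v (.inl 2),
      -(ent x 1 0 * v (.inl 1)) + ent x 1 1 * v (.inl 2), v (.inl 3)]
      ![v (.inr 0), ent x 1 1 * v (.inr 1) + ent x 1 0 * v (.inr 2),
      ent x 0 1 * v (.inr 1) + ent x 0 0 * v (.inr 2), v (.inr 3)] := by
  rw [coe_th, Matrix.fromBlocks_mulVec]
  ext i
  rcases i with i | i <;> fin_cases i <;>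
    simp [tA, tD, Matrix.mulVec, dotProduct, Fin.sum_univ_four] <;> ring

/-- the table -/
abbrev cc (K : Type*) [Field K] := OrthD4Tab.compat K

theorem rt14 : tab.rt 14 = (Sum.inl 1, Sum.inr 2, 1) := by decide +kernel
theorem rt9 : tab.rt 9 = (Sum.inr 1, Sum.inl 2, -1) := by decide +kernel

theorem rootV_act (r : Fin chevD4.nroots) (t : K) (v : Fin 4 ⊕ Fin 4 → K) :
    (Tab.rootV (cc K) r t : Matrix (Fin 4 ⊕ Fin 4) (Fin 4 ⊕ Fin 4) K) *ᵥ v =
      (plusForm 4 K).sgl (Pi.single (tab.rt r).1 1) ((((tab.rt r).2.2 : K) * t) • Pi.single (tab.rt r).2.1 1) v :=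
  (plusForm 4 K).sieg_act _ _ _

theorem rootV14 (r : Fin chevD4.nroots) (hr : (r : ℕ) = 14) (t : K) : Tab.rootV (cc K) r t = th (up t) := by
  apply ext_act
  intro v
  rw [rootV_act, HypForm.sgl_def, HypForm.B_smul, hr, rt14]
  rw [(plusForm 4 K).B_single (Sum.inl 1) (Set.mem_univ _), (plusForm 4 K).B_single (Sum.inr 2) (Set.mem_univ _),
    HypForm.Q_smul, (plusForm 4 K).Q_single (Sum.inr 2) (Set.mem_univ _), th_act]
  ext i
  rcases i with i | i <;> fin_cases i <;> simp [plusForm, Pi.single_apply] <;> ring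

theorem rootV9 (r : Fin chevD4.nroots) (hr : (r : ℕ) = 9) (t : K) : Tab.rootV (cc K) r t = th (lo t) := by
  apply ext_act
  intro v
  rw [rootV_act, HypForm.sgl_def, HypForm.B_smul, hr, rt9]
  rw [(plusForm 4 K).B_single (Sum.inr 1) (Set.mem_univ _), (plusForm 4 K).B_single (Sum.inl 2) (Set.mem_univ _),
    HypForm.Q_smul, (plusForm 4 K).Q_single (Sum.inl 2) (Set.mem_univ _), th_act]
  ext i
  rcases i with i | i <;> fin_cases i <;> simp [plusForm, Pi.single_apply] <;> ring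

/-- the relation -/
abbrev RelK (g : GL (Fin 4 ⊕ Fin 4) K) (A : GL chevD4.Idx K) : Prop :=
  tab.Rel (plusForm 4 K) g (A : Matrix chevD4.Idx chevD4.Idx K)

theorem rel_up (t : K) : RelK (th (up t)) (D4Comm.xG 14 t) := by
  have h1 := Tab.rel_rootV (cc K) OrthD4Tab.ok (⟨14, by decide⟩ : Fin chevD4.nroots) t
  rw [rootV14 _ rfl] at h1
  exact h1

theorem rel_lo (t : K) : RelK (th (lo t)) (D4Comm.xG 9 t) := by
  have h1 := Tab.rel_rootV (cc K) OrthD4Tab.ok (⟨9, by decide⟩ : Fin chevD4.nroots) t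
  rw [rootV9 _ rfl] at h1
  exact h1

/-- **the two actions are intertwined** -/
theorem rel_pa {P : Type*} [Field P] (c : P →+* K) (x : SL2 P) :
    RelK (th (Matrix.SpecialLinearGroup.map c x)) (Cfsg.Agent.Cit.HexD4.pa0 c x) := by
  have hup : ∀ t : P, RelK (th (Matrix.SpecialLinearGroup.map c (up t))) (Cfsg.Agent.Cit.HexD4.pa0 c (up t)) := by
    intro t
    have e : Matrix.SpecialLinearGroup.map c (up t) = up (c t) := GH.LowRankD4.map_up (F := K) c t
    rw [e, Cit.HexD4.pa0_up]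
    exact rel_up _
  have hlo : ∀ t : P, RelK (th (Matrix.SpecialLinearGroup.map c (lo t))) (Cfsg.Agent.Cit.HexD4.pa0 c (lo t)) := by
    intro t
    have e : Matrix.SpecialLinearGroup.map c (lo t) = lo (c t) := GH.LowRankD4.map_lo (F := K) c t
    rw [e, Cit.HexD4.pa0_lo]
    exact rel_lo _
  obtain ⟨a, b, d, e, rfl⟩ := exists_up_lo x
  simp only [map_mul]
  exact (((hup a).mul (hlo b)).mul (hup d)).mul (hlo e)

end Cfsg.Agent.H641.RV
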